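import Mathlib
import Cfsg.Agent.Inv.FzBasic

/-! # A `p`-group acting on a `2`-group of order `p + 1` or `2 (p + 1)` (S3597). -/

set_option autoImplicit false
open Subgroup
open Cfsg.Agent.Inv.Fz

namespace Cfsg.Agent.LP2

variable {G : Type*} [Group G] {p : ℕ}

/-- The conjugates of `v` by `D`. -/
def orb (D : Subgroup G) (v : G) : Set G := {w | ∃ x ∈ D, x * v * x⁻¹ = w}

theorem ncard_orb (D : Subgroup G) (v : G) : (orb D v).ncard = (centralizer {v}).relIndex D := by
  letI : MulAction D G := MulAction.compHom G ((MulAut.conj (G := G)).comp D.subtype)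
  have h1 : orb D v = MulAction.orbit D v := by
    ext w
    exact ⟨fun ⟨x, hx, e⟩ => ⟨⟨x, hx⟩, e⟩, fun ⟨x, e⟩ => ⟨x.1, x.2, e⟩⟩
  have h2 : (centralizer {v}).subgroupOf D = MulAction.stabilizer D v := by
    ext x
    rw [mem_subgroupOf, mem_centralizer_singleton_iff, MulAction.mem_stabilizer_iff]
    exact (mul_inv_eq_iff_eq_mul (a := x.1 * v) (b := x.1) (c := v)).symm
  rw [h1, relIndex, h2, MulAction.index_stabilizer]

theorem orb_subset {D V : Subgroup G} (hn : D ≤ normalizer (V : Set G)) {v : G} (hv : v ∈ V) : orb D v ⊆ V := by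
  rintro _ ⟨x, hx, rfl⟩
  exact (mem_normalizer_iff.1 (hn hx) v).1 hv

variable [Finite G] [hp : Fact p.Prime]

theorem le_ncard_orb {D : Subgroup G} (hD : IsPGroup p D) {v : G} (hc : ¬ D ≤ centralizer {v}) :
    p ≤ (orb D v).ncard := by
  rw [ncard_orb]
  obtain ⟨k, hk⟩ := hD.index ((centralizer {v}).subgroupOf D)
  rw [relIndex, hk]
  refine Nat.le_self_pow (fun h0 => hc ?_) p
  rw [h0, pow_zero, index_eq_one, subgroupOf_eq_top] at hk
  exact hk

omit [Finite G] hp in
theorem not_mem_orb {D : Subgroup G} {v w : G} (hc : ¬ D ≤ centralizer {v}) (hw : D ≤ centralizer {w}) :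
    w ∉ orb D v := by
  rintro ⟨x, hx, e⟩
  have h1 := mem_centralizer_singleton_iff.1 (hw hx)
  have : v = w := by
    calc v = x⁻¹ * (x * v * x⁻¹) * x := by group
      _ = x⁻¹ * (w * x) := by rw [e, mul_assoc]
      _ = w := by rw [← h1, inv_mul_cancel_left]
  exact hc (this ▸ hw)

omit [Finite G] hp in
theorem le_cent_one (D : Subgroup G) : D ≤ centralizer {1} := fun x _ => mem_centralizer_singleton_iff.2 (by simp)

theorem trans {D V : Subgroup G} (hD : IsPGroup p D) (hn : D ≤ normalizer (V : Set G)) (hV : Nat.card V = p + 1)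
    {v : G} (hv : v ∈ V) (hc : ¬ D ≤ centralizer {v}) {w : G} (hw : w ∈ V) (h1 : w ≠ 1) :
    ∃ x ∈ D, x * v * x⁻¹ = w := by
  have hs : orb D v ⊆ (V : Set G) \ {1} := fun y hy =>
    ⟨orb_subset hn hv hy, fun e => not_mem_orb hc (le_cent_one D) (Set.mem_singleton_iff.1 e ▸ hy)⟩
  have hc2 : ((V : Set G) \ {1}).ncard = p := by
    rw [Set.ncard_diff_singleton_of_mem V.one_mem, ← Nat.card_coe_set_eq]
    exact (congrArg (· - 1) hV).trans (Nat.add_sub_cancel p 1)
  have := Set.eq_of_subset_of_ncard_le hs (hc2 ▸ le_ncard_orb hD hc)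
  exact (this ▸ (⟨hw, h1⟩ : w ∈ (V : Set G) \ {1}) : w ∈ orb D v)

omit hp in
theorem comm_of_index {A R : Subgroup G} (hA : ∀ a ∈ A, ∀ x ∈ R, a * x = x * a) (hAR : A ≤ R)
    (hc : Nat.card R ≤ 2 * Nat.card A) {a b : G} (ha : a ∈ R) (hb : b ∈ R) : a * b = b * a := by
  by_cases h1 : a ∈ A
  · exact hA a h1 b hb
  by_cases h2 : b ∈ A
  · exact (hA b h2 a ha).symm
  have e := card_mul_relIndex hAR
  have h0 : 0 < Nat.card A := Nat.card_pos
  have h0' : 0 < Nat.card R := Nat.card_pos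
  have hi : A.relIndex R = 2 := by
    have i1 : A.relIndex R ≠ 1 := fun h => h1 (relIndex_eq_one.1 h ha)
    have i0 : A.relIndex R ≠ 0 := fun h => by rw [h] at e; omega
    have i2 : A.relIndex R ≤ 2 := by
      by_contra h3
      have : Nat.card A * 3 ≤ Nat.card A * A.relIndex R := Nat.mul_le_mul_left _ (by omega)
      omega
    omega
  have h3 : a⁻¹ * b ∈ A :=
    (mul_mem_iff_of_index_two (H := A.subgroupOf R) hi (a := ⟨a⁻¹, inv_mem ha⟩) (b := ⟨b, hb⟩)).2
      ⟨fun h => (h1 (inv_mem_iff.1 h)).elim, fun h => (h2 h).elim⟩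
  have h4 := hA _ h3 a ha
  rw [mul_inv_cancel_left] at h4
  calc a * b = a * (a⁻¹ * b * a) := by rw [h4]
    _ = b * a := by group

omit hp in
theorem exists_not_mem (R : Subgroup G) (l : List G) (h : l.length < Nat.card R) : ∃ u ∈ R, u ∉ l := by
  classical
  by_contra hh
  push Not at hh
  have h1 : (R : Set G) ⊆ l.toFinset := fun x hx => by simpa using hh x hx
  have h2 := Set.ncard_le_ncard h1
  rw [Set.ncard_coe_finset, ← Nat.card_coe_set_eq] at h2
  exact absurd (h2.trans (List.toFinset_card_le l)) (not_le.2 h)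

omit [Finite G] hp in
theorem exists_sq_mem {R Z : Subgroup G} (hR : IsPGroup 2 R) {w : G} (hw : w ∈ R) (hZ : w ∉ Z) :
    ∃ v ∈ R, v ∉ Z ∧ v * v ∈ Z := by
  obtain ⟨k, hk⟩ := hR ⟨w, hw⟩
  have hk' : w ^ 2 ^ k ∈ Z := by rw [show w ^ 2 ^ k = 1 from congrArg Subtype.val hk]; exact one_mem _
  clear hk
  induction k generalizing w with
  | zero => exact absurd (by simpa using hk') hZ
  | succ k ih =>
    by_cases h : w * w ∈ Z
    · exact ⟨w, hw, hZ, h⟩
    · exact ih (mul_mem hw hw) h (by rwa [← pow_two, ← pow_mul, ← pow_succ'])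

omit [Finite G] hp in
theorem comm_of_sq {R : Subgroup G} (h : ∀ x ∈ R, x * x = 1) {a b : G} (ha : a ∈ R) (hb : b ∈ R) : a * b = b * a := by
  rw [← inv_eq_of_mul_eq_one_right (h _ (mul_mem ha hb)), mul_inv_rev, inv_eq_of_mul_eq_one_right (h _ ha),
    inv_eq_of_mul_eq_one_right (h _ hb)]

/-- A group of order `p + 1` with a fixed point free action is elementary abelian. -/
theorem sq_eq_one {P V : Subgroup G} (hP : IsPGroup p P) (hn : P ≤ normalizer (V : Set G)) (hV : Nat.card V = p + 1)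
    (h2 : IsPGroup 2 V) (hf : V ⊓ centralizer (P : Set G) = ⊥) {w : G} (hw : w ∈ V) : w * w = 1 := by
  by_cases h1 : w = 1
  · simp [h1]
  obtain ⟨v, hv, hv1, hv2⟩ := exists_sq_mem (Z := ⊥) h2 hw (by simpa using h1)
  have hc : ¬ P ≤ centralizer {v} := fun h => hv1 (hf ▸ ⟨hv, fun x hx => mem_centralizer_singleton_iff.1 (h hx)⟩)
  obtain ⟨x, -, rfl⟩ := trans hP hn hV hv hc hw h1
  calc x * v * x⁻¹ * (x * v * x⁻¹) = x * (v * v) * x⁻¹ := by group
    _ = 1 := by rw [mem_bot.1 hv2]; simp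

/-- The group of order `2 (p + 1)` is abelian. -/
theorem ab2 {P R : Subgroup G} (h7 : 7 ≤ p) (hP : IsPGroup p P) (hn : P ≤ normalizer (R : Set G))
    (hR : Nat.card R = 2 * (p + 1)) (h2 : IsPGroup 2 R) (hZ : Nat.card (R ⊓ centralizer (P : Set G) :) = 2)
    {a b : G} (ha : a ∈ R) (hb : b ∈ R) : a * b = b * a := by
  set Z := R ⊓ centralizer (P : Set G) with hZd
  have hcZ : ∀ v ∈ R, v ∉ Z → ¬ P ≤ centralizer {v} := fun v hv h1 h =>
    h1 ⟨hv, fun x hx => mem_centralizer_singleton_iff.1 (h hx)⟩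
  have hZc : ∀ v ∈ Z, P ≤ centralizer {v} := fun v hv x hx => mem_centralizer_singleton_iff.2 (hv.2 x hx)
  obtain ⟨z, hz1, hz⟩ := (Nat.card_eq_two_iff' (1 : Z)).1 hZ
  have hzm : ∀ y ∈ Z, y = 1 ∨ y = z := fun y hy => by
    by_cases h : y = 1
    · exact Or.inl h
    · exact Or.inr (congrArg Subtype.val (hz ⟨y, hy⟩ fun e => h (congrArg Subtype.val e)))
  have hz1' : (z : G) ≠ 1 := fun e => hz1 (Subtype.ext e)
  have hzz : (z : G) * z = 1 := (hzm _ (mul_mem z.2 z.2)).resolve_right fun e => hz1' (by simpa using e)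
  by_cases hc : ∃ c ∈ R ⊓ centralizer (R : Set G), c ∉ Z
  · obtain ⟨c, hc, hcZ'⟩ := hc
    refine comm_of_index (A := R ⊓ centralizer (R : Set G)) (fun a ha x hx => (ha.2 x hx).symm) inf_le_left ?_ ha hb
    have hs : insert 1 (orb P c) ⊆ ((R ⊓ centralizer (R : Set G) : Subgroup G) : Set G) := by
      rintro y (rfl | hy)
      · exact one_mem _
      · refine orb_subset (fun x hx => ?_) hc hy
        exact inf_normalizer_le_normalizer_inf ⟨hn hx, normalizer_le_normalizer_centralizer R (hn hx)⟩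
    have h3 := Set.ncard_le_ncard hs
    rw [Set.ncard_insert_of_notMem (not_mem_orb (hcZ c hc.1 hcZ') (le_cent_one P))] at h3
    have h4 := le_ncard_orb hP (hcZ c hc.1 hcZ')
    rw [hR]
    exact Nat.mul_le_mul_left 2 (le_trans (by omega) (h3.trans (Nat.card_coe_set_eq _).ge))
  push Not at hc
  have hzR : ∀ x ∈ R, x * z = z * x := by
    haveI : Nontrivial R := Finite.one_lt_card_iff_nontrivial.1 (by omega)
    haveI := h2.center_nontrivial
    obtain ⟨c, hc1⟩ := exists_ne (1 : center R)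
    have h3 : c.1.1 ∈ R ⊓ centralizer (R : Set G) :=
      ⟨c.1.2, fun x hx => congrArg Subtype.val (mem_center_iff.1 c.2 ⟨x, hx⟩)⟩
    rcases hzm _ (hc _ h3) with e | e
    · exact absurd (Subtype.ext (Subtype.ext e)) hc1
    · exact e ▸ h3.2
  obtain ⟨w0, hw0, hw0'⟩ := exists_not_mem R [1, z] (by simp; omega)
  have hnZ : ∀ {y : G}, y ≠ 1 → y ≠ z → y ∉ Z := fun h1 h2 h => (hzm _ h).elim h1 h2
  simp only [List.mem_cons, List.not_mem_nil, or_false, not_or] at hw0'
  obtain ⟨v, hv, hvZ, hv2⟩ := exists_sq_mem h2 hw0 (hnZ hw0'.1 hw0'.2)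
  have hzv : (z : G) * v ∉ Z := fun h => hvZ ((mul_mem_cancel_left z.2).1 h)
  have hzv' : (z : G) * v ∈ R := mul_mem z.2.1 hv
  have hall : ∀ w ∈ R, w ∉ Z → w * w = v * v := by
    have hd : Disjoint (orb P v) (orb P (z * v)) := by
      rw [Set.disjoint_left]
      rintro _ ⟨x, hx, rfl⟩ ⟨y, hy, e⟩
      have hu : x⁻¹ * y ∈ P := mul_mem (inv_mem hx) hy
      have e1 : (x⁻¹ * y) * (z * v) * (x⁻¹ * y)⁻¹ = v := by
        calc _ = x⁻¹ * (y * (z * v) * y⁻¹) * x := by group
          _ = v := by rw [e]; group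
      generalize x⁻¹ * y = u at hu e1
      have hzu : u * z = z * u := z.2.2 u hu
      have e2 : u * v * u⁻¹ = z * v := by
        calc u * v * u⁻¹ = u * (z * z) * v * u⁻¹ := by rw [hzz, mul_one]
          _ = (u * z) * (z * v) * u⁻¹ := by group
          _ = z * (u * (z * v) * u⁻¹) := by rw [hzu]; group
          _ = z * v := by rw [e1]
      have e3 : u * u ∈ centralizer {v} := by
        rw [mem_centralizer_singleton_iff]
        calc u * u * v = u * (u * v * u⁻¹) * u⁻¹ * (u * u) := by group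
          _ = v * (u * u) := by rw [e2, e1]
      obtain ⟨k, hk⟩ := hP ⟨u, hu⟩
      obtain ⟨j, hj⟩ : Odd (p ^ k) := (hp.out.odd_of_ne_two (by omega)).pow
      have e4 : u ∈ centralizer {v} := by
        have : (u * u) ^ j * u = 1 := by
          rw [← pow_two, ← pow_mul, ← pow_succ, ← hj]; exact congrArg Subtype.val hk
        rw [eq_inv_of_mul_eq_one_right this]
        exact inv_mem (pow_mem e3 j)
      rw [mem_centralizer_singleton_iff.1 e4, mul_inv_cancel_right] at e2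
      exact hz1' (by simpa using e2)
    have hs : orb P v ∪ orb P (z * v) ⊆ (R : Set G) \ (Z : Set G) := by
      rintro y (hy | hy)
      · exact ⟨orb_subset hn hv hy, fun h => not_mem_orb (hcZ v hv hvZ) (hZc y h) hy⟩
      · exact ⟨orb_subset hn hzv' hy, fun h => not_mem_orb (hcZ _ hzv' hzv) (hZc y h) hy⟩
    have h3 : ((R : Set G) \ (Z : Set G)).ncard = 2 * p := by
      rw [Set.ncard_diff (show (Z : Set G) ⊆ R from fun y hy => hy.1), ← Nat.card_coe_set_eq, ← Nat.card_coe_set_eq]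
      change Nat.card R - Nat.card Z = _
      omega
    have h4 := le_ncard_orb hP (hcZ v hv hvZ)
    have h5 := le_ncard_orb hP (hcZ _ hzv' hzv)
    have h6 := Set.eq_of_subset_of_ncard_le hs (by rw [Set.ncard_union_eq hd]; omega)
    have hx2 : ∀ x ∈ P, x * (v * v) * x⁻¹ = v * v := fun x hx => by rw [hv2.2 x hx, mul_inv_cancel_right]
    intro w hw hwZ
    have : w ∈ orb P v ∪ orb P (z * v) := h6 ▸ ⟨hw, hwZ⟩
    rcases this with ⟨x, hx, rfl⟩ | ⟨x, hx, rfl⟩
    · rw [← hx2 x hx]; group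
    · rw [← hx2 x hx]
      calc x * (z * v) * x⁻¹ * (x * (z * v) * x⁻¹) = x * (z * (v * z) * v) * x⁻¹ := by group
        _ = x * ((z * z) * (v * v)) * x⁻¹ := by rw [hzR v hv]; group
        _ = _ := by rw [hzz, one_mul]
  rcases hzm _ hv2 with e | e
  · refine comm_of_sq (fun x hx => ?_) ha hb
    by_cases h : x ∈ Z
    · rcases hzm x h with rfl | rfl
      · simp
      · exact hzz
    · rw [hall x hx h, e]
  · exfalso
    have anti : ∀ a ∈ R, ∀ b ∈ R, a ∉ Z → b ∉ Z → a * b ∉ Z → b * a = a * b * z := fun a ha b hb h1 h2 h3 => by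
      have e1 := (hall a ha h1).trans e
      have e2 := (hall b hb h2).trans e
      have e3 := (hall _ (mul_mem ha hb) h3).trans e
      calc b * a = a⁻¹ * (a * b * (a * b)) * b⁻¹ := by group
        _ = a⁻¹ * (a * a) * b⁻¹ * (z * z) := by rw [e3, e1, hzz, mul_one]
        _ = a * (b⁻¹ * (b * b)) * z := by rw [e2]; group
        _ = a * b * z := by group
    have hne : ∀ {u c : G}, u ≠ c⁻¹ → u ≠ z * c⁻¹ → u * c ∉ Z := fun h1 h2 =>
      hnZ (fun e => h1 (eq_inv_of_mul_eq_one_left e)) fun e => h2 (eq_mul_inv_of_mul_eq e)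
    obtain ⟨w, hw, hw'⟩ := exists_not_mem R [1, z, v⁻¹, z * v⁻¹] (by simp; omega)
    simp only [List.mem_cons, List.not_mem_nil, or_false, not_or] at hw'
    obtain ⟨u, hu, hu'⟩ := exists_not_mem R [1, z, v⁻¹, z * v⁻¹, w⁻¹, z * w⁻¹, (w * v)⁻¹, z * (w * v)⁻¹]
      (by simp; omega)
    simp only [List.mem_cons, List.not_mem_nil, or_false, not_or] at hu'
    obtain ⟨a1, a2, a3, a4, a5, a6, a7, a8⟩ := hu'
    obtain ⟨b1, b2, b3, b4⟩ := hw'
    have e1 := anti u hu v hv (hnZ a1 a2) hvZ (hne a3 a4)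
    have e2 := anti u hu w hw (hnZ a1 a2) (hnZ b1 b2) (hne a5 a6)
    have e3 := anti u hu _ (mul_mem hw hv) (hnZ a1 a2) (hne b3 b4) (hne a7 a8)
    have e4 : w * v * u = u * (w * v) := by
      calc w * v * u = w * (u * v * z) := by rw [mul_assoc, e1]
        _ = (w * u) * (v * z) := by group
        _ = u * w * (z * z) * v := by rw [e2, hzR v hv]; group
        _ = _ := by rw [hzz]; group
    rw [e4] at e3
    exact hz1' (by simpa using e3)

end Cfsg.Agent.LP2
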