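import Cfsg.Agent.LP2.Ab

/-! # The automizer of a `2`-group of order `p + 1` (S3597). -/

set_option autoImplicit false
open Subgroup
open Cfsg.Agent.Inv.Fz

namespace Cfsg.Agent.LP2

variable {G : Type*} [Group G] {p : ℕ} [Finite G] [hp : Fact p.Prime]

omit [Finite G] hp in
theorem mem_of_odd {K : Subgroup G} (hK : K.index = 2) {x : G} {n : ℕ} (hn : Odd n) (hx : x ^ n = 1) : x ∈ K := by
  obtain ⟨j, rfl⟩ := hn
  rw [pow_succ, pow_mul] at hx
  rw [eq_inv_of_mul_eq_one_right hx]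
  exact inv_mem (pow_mem (sq_mem_of_index_two hK x) j)

theorem exists_invol (h2 : 2 ∣ Nat.card G) (h4 : ¬ 4 ∣ Nat.card G) (hp2 : p ≠ 2) (Q : Sylow p G) :
    ∃ t ∈ normalizer ((Q : Subgroup G) : Set G), t * t = 1 ∧ t ≠ 1 := by
  obtain ⟨T⟩ : Nonempty (Sylow 2 G) := inferInstance
  have hT : Nat.card T = 2 := by
    obtain ⟨k, hk⟩ := T.2.exists_card_eq
    have h1 : 2 ^ 1 ∣ Nat.card T := T.pow_dvd_card_of_pow_dvd_card (by simpa using h2)
    have h3 : Nat.card T ∣ Nat.card G := card_subgroup_dvd_card _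
    change Nat.card T = _ at hk
    rw [hk] at h1 h3 ⊢
    have h5 := (Nat.pow_dvd_pow_iff_le_right (by omega)).1 h1
    have h6 : ¬ 2 ≤ k := fun h => h4 ((pow_dvd_pow 2 h).trans h3)
    rw [show k = 1 by omega, pow_one]
  have hc : IsCyclic T := isCyclic_of_prime_card hT
  have hK := (IsCyclic.isComplement' ((Nat.minFac_eq_two_iff _).2 h2) hc).symm.index_eq_card
  rw [hT] at hK
  generalize hKd : (MonoidHom.transferSylow T _).ker = K at hK
  haveI : K.Normal := hKd ▸ MonoidHom.normal_ker _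
  have hQK : (Q : Subgroup G) ≤ K := fun x hx => by
    obtain ⟨k, hk⟩ := Q.2 ⟨x, hx⟩
    exact mem_of_odd hK (hp.out.odd_of_ne_two hp2).pow (congrArg Subtype.val hk)
  have hF := Sylow.normalizer_sup_eq_top' Q hQK
  have : ¬ normalizer (Q : Set G) ≤ K := fun h => by
    rw [sup_eq_right.2 h] at hF
    rw [hF, index_top] at hK
    omega
  obtain ⟨b, hb, hbK⟩ := SetLike.not_le_iff_exists.1 this
  rcases Nat.even_or_odd (orderOf b) with ⟨j, hj⟩ | ho
  · have h0 := orderOf_pos b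
    refine ⟨b ^ j, pow_mem hb j, by rw [← pow_add, ← hj, pow_orderOf_eq_one], fun e => ?_⟩
    have := Nat.le_of_dvd (by omega) (orderOf_dvd_of_pow_eq_one e)
    omega
  · exact absurd (mem_of_odd hK ho (pow_orderOf_eq_one b)) hbK

omit hp in
/-- An involution acting on an elementary abelian group of order more than four fixes two involutions. -/
theorem two_fixed {V : Type*} [Group V] [Finite V] (hV : 4 < Nat.card V) (hsq : ∀ v : V, v * v = 1)
    (t : MulAut V) (ht : t * t = 1) : ∃ v w : V, v ≠ 1 ∧ w ≠ 1 ∧ v ≠ w ∧ t v = v ∧ t w = w := by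
  have hc : ∀ a b : V, a * b = b * a := fun a b =>
    comm_of_sq (R := ⊤) (fun x _ => hsq x) (mem_top a) (mem_top b)
  have htt : ∀ v, t (t v) = v := fun v => by rw [← MulAut.mul_apply, ht, MulAut.one_apply]
  let f : V →* V := MonoidHom.mk' (fun v => v * t v) fun a b => by
    rw [map_mul, mul_assoc, mul_assoc, ← mul_assoc b, hc b (t a), mul_assoc]
  have hk : ∀ v, v ∈ f.ker ↔ t v = v := fun v => by
    change v * t v = 1 ↔ _
    rw [mul_eq_one_iff_eq_inv', inv_eq_of_mul_eq_one_right (hsq v)]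
  have hr : f.range ≤ f.ker := by
    rintro _ ⟨v, rfl⟩
    rw [hk]
    change t (v * t v) = v * t v
    rw [map_mul, htt, hc]
  have h1 := card_eq_card_quotient_mul_card_subgroup f.ker
  rw [Nat.card_congr (QuotientGroup.quotientKerEquivRange f).toEquiv] at h1
  have h2 := card_le_of_le hr
  have h3 : 2 < Nat.card f.ker := by
    by_contra h
    have : Nat.card f.range * Nat.card f.ker ≤ 2 * 2 := Nat.mul_le_mul (by omega) (by omega)
    omega
  obtain ⟨v, hv, hv1⟩ := exists_not_mem f.ker [1] (lt_trans (show 1 < 2 by omega) h3)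
  obtain ⟨w, hw, hw1⟩ := exists_not_mem f.ker [1, v] h3
  simp only [List.mem_cons, List.not_mem_nil, or_false, not_or] at hv1 hw1
  exact ⟨v, w, hv1, hw1.1, fun e => hw1.2 e.symm, (hk v).1 hv, (hk w).1 hw⟩

theorem ab1 {P V : Subgroup G} (h7 : 7 ≤ p) (hP : IsSylIn p P ⊤) (hc : ∀ x ∈ P, ∀ y ∈ P, x * y = y * x)
    (hn : P ≤ normalizer (V : Set G)) (hV : Nat.card V = p + 1) (h2 : IsPGroup 2 V)
    (hf : V ⊓ centralizer (P : Set G) = ⊥) (h4 : ¬ 4 * (p + 1) ∣ Nat.card G) {S : Subgroup G} (hS : IsPGroup 2 S)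
    (hSn : S ≤ normalizer (V : Set G)) : S ≤ centralizer (V : Set G) := by
  have hsq : ∀ w ∈ V, w * w = 1 := fun w hw => sq_eq_one hP.isPGroup hn hV h2 hf hw
  intro s hs
  by_contra hsc
  set M := normalizer (V : Set G) with hM
  let φ : M →* MulAut V := V.normalizerMonoidHom
  have hφ : ∀ (x : M) (v : V), (φ x v : G) = x * v * (x : G)⁻¹ := fun _ _ => rfl
  have hker : φ.ker = (centralizer (V : Set G)).subgroupOf M := normalizerMonoidHom_ker V
  let ψ := φ.rangeRestrict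
  have hψ : Function.Surjective ψ := φ.rangeRestrict_surjective
  have hB2 : 2 ∣ Nat.card φ.range := by
    obtain ⟨k, hk⟩ := hS ⟨s, hs⟩
    have e1 : ψ ⟨s, hSn hs⟩ ^ 2 ^ k = 1 := by
      rw [← map_pow, show (⟨s, hSn hs⟩ : M) ^ 2 ^ k = 1 from Subtype.ext (congrArg Subtype.val hk :), map_one]
    obtain ⟨j, -, hj⟩ := (Nat.dvd_prime_pow Nat.prime_two).1 (orderOf_dvd_of_pow_eq_one e1)
    refine Dvd.dvd.trans ?_ (orderOf_dvd_natCard (ψ ⟨s, hSn hs⟩))
    rw [hj]
    refine dvd_pow_self 2 fun h0 => hsc ?_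
    rw [h0, pow_zero, orderOf_eq_one_iff] at hj
    have : (⟨s, hSn hs⟩ : M) ∈ φ.ker := congrArg Subtype.val hj
    rwa [hker] at this
  have hB4 : ¬ 4 ∣ Nat.card φ.range := fun h => h4 (by
    have h1 := card_eq_card_quotient_mul_card_subgroup φ.ker
    rw [Nat.card_congr (QuotientGroup.quotientKerEquivRange φ).toEquiv] at h1
    have h3 : V.subgroupOf M ≤ φ.ker := by
      rw [hker]
      exact fun x hx y hy => comm_of_sq hsq hy hx
    have h5 := card_dvd_of_le h3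
    rw [Nat.card_congr (subgroupOfEquivOfLe le_normalizer).toEquiv, hV] at h5
    exact (h1 ▸ Nat.mul_dvd_mul h h5).trans (card_subgroup_dvd_card M))
  obtain ⟨t, ht, ht2, ht1⟩ := exists_invol hB2 hB4 (show p ≠ 2 by omega)
    (Sylow.mapSurjective hψ (hP.mono hn le_top).toSylow)
  obtain ⟨v, w, hv, hw, hvw, tv, tw⟩ := two_fixed (V := V) (by omega) (fun v => Subtype.ext (hsq v v.2)) t.1
    (congrArg Subtype.val ht2)
  have hfc : ∀ v : V, v ≠ 1 → ¬ P ≤ centralizer {(v : G)} := fun v hv h => hv (Subtype.ext (mem_bot.1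
    (hf ▸ ⟨v.2, fun x hx => mem_centralizer_singleton_iff.1 (h hx)⟩)))
  obtain ⟨x, hx, e⟩ := trans hP.isPGroup hn hV v.2 (hfc v hv) w.2 (fun e => hw (Subtype.ext e))
  have exv : φ ⟨x, hn hx⟩ v = w := Subtype.ext e
  obtain ⟨x', hx', e'⟩ := (mem_normalizer_iff.1 ht (ψ ⟨x, hn hx⟩)).1 ⟨⟨x, hn hx⟩, hx, rfl⟩
  have e2 : φ x' = t.1 * φ ⟨x, hn hx⟩ * t.1⁻¹ := congrArg Subtype.val e'
  have hx'P : (x' : G) ∈ P := hx'
  have e3 : φ x' v = w := by
    have : t.1⁻¹ v = v := by rw [MulAut.inv_apply, MulEquiv.symm_apply_eq, tv]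
    rw [e2, MulAut.mul_apply, MulAut.mul_apply, this, exv, tw]
  have e4 : φ x' = φ ⟨x, hn hx⟩ := by
    ext u
    by_cases hu : u = 1
    · rw [hu, map_one, map_one]
    obtain ⟨z, hz, ez⟩ := trans hP.isPGroup hn hV v.2 (hfc v hv) u.2 (fun e => hu (Subtype.ext e))
    have e5 : (x' : G) * v * (x' : G)⁻¹ = x * v * x⁻¹ := by rw [← hφ, e3, e]
    rw [hφ, hφ, ← ez]
    calc (x' : G) * (z * v * z⁻¹) * (x' : G)⁻¹ = (x' * z) * v * (x' * z)⁻¹ := by group
      _ = z * (x' * v * (x' : G)⁻¹) * z⁻¹ := by rw [hc _ hx'P z hz]; group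
      _ = (z * x) * v * (z * x)⁻¹ := by rw [e5]; group
      _ = x * (z * v * z⁻¹) * x⁻¹ := by rw [hc z hz x hx]; group
  have hcm : Commute t.1 (φ ⟨x, hn hx⟩) := mul_inv_eq_iff_eq_mul.1 (e2.symm.trans e4)
  have hD : zpowers x ≤ P := zpowers_le.2 hx
  have hDc : ¬ zpowers x ≤ centralizer {(v : G)} := fun h => hvw (Subtype.ext (by
    rw [← e, mem_centralizer_singleton_iff.1 (h (mem_zpowers x)), mul_inv_cancel_right]))
  refine ht1 (Subtype.ext (MulEquiv.ext fun u => ?_))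
  change t.1 u = u
  by_cases hu : u = 1
  · rw [hu, map_one]
  obtain ⟨_, ⟨i, rfl⟩, ez⟩ := trans (hP.isPGroup.to_le hD) (hD.trans hn) hV v.2 hDc u.2 (fun e => hu (Subtype.ext e))
  have e6 : (φ ⟨x, hn hx⟩ ^ i) v = u := by
    rw [← map_zpow]
    exact Subtype.ext ez
  rw [← e6, ← MulAut.mul_apply, (hcm.zpow_right i).eq, MulAut.mul_apply, tv]

end Cfsg.Agent.LP2
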