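import Mathlib

/-! # Arithmetic of the divisors of `p⁴ - 1` (S3597). -/

set_option autoImplicit false

namespace Cfsg.Agent.LP2

/-- A divisor of `p⁴ - 1` that is `1` modulo `p²`. -/
theorem n1 {p c j t : ℕ} (hp : 2 ≤ p) (h : c * j + 1 = p ^ 4) (hc : c = 1 + p ^ 2 * t) : t = 0 ∨ t = 1 := by
  subst hc
  set P := p ^ 2 with hP
  have hP4 : p ^ 4 = P * P := by rw [hP]; ring
  have hP2 : 4 ≤ P := by rw [hP]; nlinarith
  rw [hP4] at h
  have h1 : P ∣ j + 1 := by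
    have : P * P = P * (t * j) + (j + 1) := by rw [← h]; ring
    exact (Nat.dvd_add_right (Dvd.intro _ rfl)).1 (this ▸ Dvd.intro _ rfl)
  obtain ⟨l, hl⟩ := h1
  have hl0 : 1 ≤ l := by
    rcases Nat.eq_zero_or_pos l with h0 | h0
    · subst h0; omega
    · exact h0
  have hj : P - 1 ≤ j := by have : P ≤ P * l := Nat.le_mul_of_pos_right _ hl0; omega
  by_contra hne
  have ht : 2 ≤ t := by omega
  obtain ⟨Q, hQ⟩ : ∃ Q, P = Q + 1 := ⟨P - 1, by omega⟩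
  have hj' : Q ≤ j := by omega
  have : (1 + P * 2) * Q ≤ (1 + P * t) * j := Nat.mul_le_mul (by nlinarith) hj'
  rw [hQ] at this h
  nlinarith

/-- A divisor of `p² - 1` that is `1` modulo `p`. -/
theorem n2a {p c u t : ℕ} (hp : 2 ≤ p) (h : c * u + 1 = p ^ 2) (hc : c = 1 + p * t) (ht : 0 < t) : c = p + 1 := by
  subst hc
  have h1 : p ∣ u + 1 := by
    have : p * p = p * (t * u) + (u + 1) := by rw [← sq, ← h]; ring
    exact (Nat.dvd_add_right (Dvd.intro _ rfl)).1 (this ▸ Dvd.intro _ rfl)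
  have h2 : p ≤ u + 1 := Nat.le_of_dvd (by omega) h1
  obtain ⟨Q, rfl⟩ : ∃ Q, p = Q + 1 := ⟨p - 1, by omega⟩
  by_contra hne
  have ht2 : 2 ≤ t := by
    by_contra h3
    have : t = 1 := by omega
    subst this; apply hne; ring
  have : (1 + (Q + 1) * 2) * Q ≤ (1 + (Q + 1) * t) * u := Nat.mul_le_mul (by nlinarith) (by omega)
  nlinarith

/-- A divisor of `p² + 1` that is `1` modulo `p`. -/
theorem n3 {p c u t : ℕ} (hp : 2 ≤ p) (h : c * u = p ^ 2 + 1) (hc : c = 1 + p * t) (ht : 0 < t) : u = 1 := by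
  subst hc
  have hu : 0 < u := by
    rcases Nat.eq_zero_or_pos u with h0 | h0
    · subst h0; simp at h
    · exact h0
  obtain ⟨w, rfl⟩ : ∃ w, u = w + 1 := ⟨u - 1, by omega⟩
  have h1 : p ∣ w := by
    have : p * p = p * (t * (w + 1)) + w := by rw [← sq]; nlinarith
    exact (Nat.dvd_add_right (Dvd.intro _ rfl)).1 (this ▸ Dvd.intro _ rfl)
  by_contra hne
  have h2 : p ≤ w := Nat.le_of_dvd (by omega) h1
  have : (1 + p * 1) * (p + 1) ≤ (1 + p * t) * (w + 1) := Nat.mul_le_mul (by nlinarith) (by omega)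
  nlinarith

/-- An odd prime power dividing `p⁴ - 1` divides `p² - 1` or `p² + 1`. -/
theorem odd_split {p r k : ℕ} (hp : 1 ≤ p) (hr : r.Prime) (h2 : r ≠ 2) (h : r ^ k ∣ p ^ 4 - 1) :
    r ^ k ∣ p ^ 2 - 1 ∨ r ^ k ∣ p ^ 2 + 1 := by
  have h1 : 1 ≤ p ^ 2 := Nat.one_le_pow _ _ hp
  have e : p ^ 4 - 1 = (p ^ 2 - 1) * (p ^ 2 + 1) := by
    obtain ⟨Q, hQ⟩ : ∃ Q, p ^ 2 = Q + 1 := ⟨p ^ 2 - 1, by omega⟩
    rw [show p ^ 4 = p ^ 2 * p ^ 2 by ring, hQ, Nat.add_sub_cancel]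
    exact Nat.sub_eq_of_eq_add (by ring)
  rw [e] at h
  by_cases ha : r ∣ p ^ 2 + 1
  · right
    refine (Nat.Coprime.pow_left k ((Nat.Prime.coprime_iff_not_dvd hr).2 fun hb => h2 ?_)).dvd_of_dvd_mul_left h
    have : r ∣ 2 := by
      have := (Nat.dvd_sub ha hb)
      rwa [show p ^ 2 + 1 - (p ^ 2 - 1) = 2 by omega] at this
    exact (Nat.prime_dvd_prime_iff_eq hr Nat.prime_two).1 this
  · exact Or.inl ((Nat.Coprime.pow_left k ((Nat.Prime.coprime_iff_not_dvd hr).2 ha)).dvd_of_dvd_mul_right h)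

theorem n2odd {p c t : ℕ} (hp : 3 ≤ p) (ho : Odd p) (hc : c = 1 + p * t) (ht : 0 < t) (hco : Odd c)
    (h : c ∣ p ^ 2 - 1 ∨ c ∣ p ^ 2 + 1) : False := by
  have h1 : 1 ≤ p ^ 2 := Nat.one_le_pow _ _ (by omega)
  rcases h with ⟨u, hu⟩ | ⟨u, hu⟩
  · have := n2a (by omega) (show c * u + 1 = p ^ 2 by omega) hc ht
    rw [this] at hco
    exact Nat.not_odd_iff_even.2 ho.add_one hco
  · have := n3 (by omega) hu.symm hc ht
    rw [this, mul_one] at hu
    rw [← hu] at hco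
    exact Nat.not_odd_iff_even.2 (ho.pow).add_one hco

/-- A prime power that is `1` modulo `p` and divides `(p⁴ - 1) / 2`. -/
theorem n2 {p r k j t : ℕ} (hp : 3 ≤ p) (ho : Odd p) (hr : r.Prime) (h : 2 * (r ^ k * j) + 1 = p ^ 4)
    (hc : r ^ k = 1 + p * t) (ht : 0 < t) : r = 2 ∧ r ^ k = p + 1 := by
  have h1 : 1 ≤ p ^ 2 := Nat.one_le_pow _ _ (by omega)
  by_cases h2 : r = 2
  · refine ⟨h2, ?_⟩
    subst h2
    obtain ⟨a, ha⟩ := ho
    have e : 2 ^ k * j = (p ^ 2 - 1) * (2 * (a ^ 2 + a) + 1) := by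
      have e1 : p ^ 2 - 1 = 4 * (a ^ 2 + a) := by rw [ha]; exact Nat.sub_eq_of_eq_add (by ring)
      have e2 : p ^ 4 = 2 * (4 * (a ^ 2 + a) * (2 * (a ^ 2 + a) + 1)) + 1 := by rw [ha]; ring
      rw [e1]; omega
    obtain ⟨u, hu⟩ : 2 ^ k ∣ p ^ 2 - 1 :=
      (Nat.Coprime.pow_left k ((Nat.coprime_two_left).2 ⟨_, rfl⟩)).dvd_of_dvd_mul_right ⟨j, e.symm⟩
    exact n2a (by omega) (show 2 ^ k * u + 1 = p ^ 2 by omega) hc ht
  · exact (n2odd hp ho hc ht ((hr.odd_of_ne_two h2).pow)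
      (odd_split (by omega) hr h2 ⟨2 * j, by rw [← h, Nat.add_sub_cancel]; ring⟩)).elim

/-- The count in the case of `p + 1` Sylow subgroups and `PSL₂(p)`. -/
theorem n4 {p c J s : ℕ} (hp : 3 ≤ p) (h : c * J = p ^ 2 + 1) (hs : c ≡ s + 1 [MOD p])
    (hc : 1 + (p + 1) * s < c) : s = 0 ∧ J = 1 := by
  have hJ : J * (s + 1) ≡ 1 [MOD p] := by
    have h1 : J * c ≡ J * (s + 1) [MOD p] := hs.mul_left J
    rw [mul_comm J c, h] at h1
    refine h1.symm.trans ?_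
    have : p ^ 2 + 1 = 1 + p * p := by ring
    rw [this]; exact (Nat.modEq_iff_dvd' (by omega)).2 (by simp) |>.symm
  have hJ0 : 0 < J := by
    rcases Nat.eq_zero_or_pos J with h0 | h0
    · subst h0; simp at h
    · exact h0
  have hle : 1 ≤ J * (s + 1) := Nat.mul_pos hJ0 (by omega)
  obtain ⟨w, hw⟩ := (Nat.modEq_iff_dvd' hle).1 hJ.symm
  have hw' : J * (s + 1) = 1 + p * w := by omega
  have hb : J * (2 + (p + 1) * s) ≤ p ^ 2 + 1 := by rw [← h, mul_comm c]; exact Nat.mul_le_mul_left _ (by omega)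
  rcases Nat.eq_zero_or_pos s with h0 | h0
  · subst h0
    refine ⟨rfl, ?_⟩
    obtain ⟨t, ht⟩ := (Nat.modEq_iff_dvd' (show 0 + 1 ≤ c by omega)).1 hs.symm
    refine n3 (t := t) (by omega) h (by omega) ?_
    rcases Nat.eq_zero_or_pos t with h1 | h1
    · subst h1; omega
    · exact h1
  · exfalso
    rcases (by omega : w = 0 ∨ w = 1 ∨ 2 ≤ w) with h1 | h1 | h1
    · subst h1; nlinarith
    · subst h1
      have d1 : J ∣ p + 1 := ⟨s + 1, by omega⟩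
      have d2 : J ∣ p ^ 2 + 1 := ⟨c, by rw [← h]; ring⟩
      have d3 : J ∣ 2 := by
        obtain ⟨Q, rfl⟩ : ∃ Q, p = Q + 1 := ⟨p - 1, by omega⟩
        rw [show (Q + 1) ^ 2 + 1 = (Q + 1 + 1) * Q + 2 by ring] at d2
        exact (Nat.dvd_add_right (d1.mul_right Q)).1 d2
      have d4 : J ≤ 2 := Nat.le_of_dvd (by omega) d3
      have e : J * s + J = p + 1 := by linarith
      rcases (by omega : J = 1 ∨ J = 2) with rfl | rfl <;> nlinarith
    · have e1 : 2 * p + 1 ≤ J * (s + 1) := by nlinarith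
      have e2 : J * (s + 1) ≤ 2 * (J * s) := by nlinarith
      have e3 : p + 1 ≤ J * s := by omega
      nlinarith

theorem dvd_fifteen {p a : ℕ} (h : a ∣ p ^ 4 - 1) (hp : 2 ≤ p) (h2 : p = a + 2 ∨ a = p + 2) : a ∣ 15 := by
  have h1 : 16 ≤ p ^ 4 := by have := Nat.pow_le_pow_left hp 4; simpa using this
  have h3 : a ∣ p ^ 4 - 16 := by
    rcases h2 with rfl | rfl
    · exact ⟨(a + 4) * ((a + 2) ^ 2 + 4), Nat.sub_eq_of_eq_add (by ring)⟩
    · obtain ⟨Q, rfl⟩ : ∃ Q, p = Q + 2 := ⟨p - 2, by omega⟩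
      exact ⟨Q * ((Q + 2) ^ 2 + 4), Nat.sub_eq_of_eq_add (by ring)⟩
  have := Nat.dvd_sub h h3
  rwa [show p ^ 4 - 1 - (p ^ 4 - 16) = 15 by omega] at this

theorem ne_two_pow {n k : ℕ} (h : n = 6 ∨ n = 12 ∨ n = 14 ∨ n = 20) : n ≠ 2 ^ k := by
  rintro rfl
  rcases (by omega : k ≤ 4 ∨ 5 ≤ k) with h1 | h1
  · interval_cases k <;> simp at h
  · have := Nat.pow_le_pow_right (show 0 < 2 by omega) h1
    omega

/-- The Sylow numbers below `p²` that divide `(p⁴ - 1) / 2`. -/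
theorem n5 {p a j t : ℕ} (hp : 7 ≤ p) (ho : Odd p) (h : 2 * (a * j) + 1 = p ^ 4) (ha : a = 1 + p * t) (ht : 0 < t)
    (H : (∃ q k : ℕ, q.Prime ∧ a = q ^ k) ∨ (p = 13 ∧ a = 144) ∨ (p ≠ 2 ∧ (¬ ∃ k : ℕ, p + 1 = 2 ^ k) ∧ a = 1 + p) ∨
      (3 < p ∧ (∃ k : ℕ, p = 2 ^ k + 1) ∧ 2 * a = 2 + (p - 3) * p) ∨
      (3 < p ∧ (∃ k : ℕ, p + 1 = 2 ^ k) ∧ 2 * a = 2 + (p + 3) * p)) : a = p + 1 ∨ (p = 17 ∧ a = 120) := by
  have hd : 2 * a ∣ p ^ 4 - 1 := ⟨j, by rw [← h, Nat.add_sub_cancel]; ring⟩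
  rcases H with ⟨q, k, hq, e⟩ | ⟨rfl, rfl⟩ | ⟨-, -, e⟩ | ⟨-, ⟨k, hk⟩, e⟩ | ⟨-, ⟨k, hk⟩, e⟩
  · left; rw [e]; exact (n2 (by omega) ho hq (e ▸ h) (e ▸ ha) ht).2
  · norm_num at hd
  · left; omega
  · right
    obtain ⟨Q, rfl⟩ : ∃ Q, p = Q + 3 := ⟨p - 3, by omega⟩
    rw [Nat.add_sub_cancel] at e
    have h15 := dvd_fifteen (a := Q + 1) (Dvd.dvd.trans ⟨Q + 2, by rw [e]; ring⟩ hd) (by omega) (Or.inl rfl)
    have := Nat.le_of_dvd (by omega) h15
    have h4 : 4 ≤ Q := by omega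
    have h5 : Q ≤ 14 := by omega
    have : Q = 4 ∨ Q = 14 := by clear * - h4 h5 h15; interval_cases Q <;> simp_all
    rcases this with rfl | rfl
    · exact absurd (show 6 = 2 ^ k by omega) (ne_two_pow (by simp))
    · exact ⟨rfl, by omega⟩
  · exfalso
    have h15 := dvd_fifteen (a := p + 2) (Dvd.dvd.trans ⟨p + 1, by rw [e]; ring⟩ hd) (by omega) (Or.inr rfl)
    have := Nat.le_of_dvd (by omega) h15
    have h5 : p ≤ 13 := by omega
    have : p = 13 := by clear * - hp h5 h15; interval_cases p <;> simp_all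
    subst this
    exact ne_two_pow (by simp) hk

theorem n6 {c j s : ℕ} (h : 2 * (120 * c * j) + 1 = 17 ^ 4) (hs : c ≡ s + 1 [MOD 17]) (hc : 1 + 120 * s < c) :
    False := by
  have hd : c ∣ 348 := ⟨j, by nlinarith⟩
  have h1 := Nat.le_of_dvd (by omega) hd
  have h2 : s ≤ 2 := by omega
  have h3 : c ∈ Nat.divisors 348 := Nat.mem_divisors.2 ⟨hd, by omega⟩
  rw [show Nat.divisors 348 = {1, 2, 3, 4, 6, 12, 29, 58, 87, 116, 174, 348} by decide +kernel] at h3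
  simp only [Finset.mem_insert, Finset.mem_singleton] at h3
  unfold Nat.ModEq at hs
  omega

/-- The `2`-part of the group order for a Mersenne prime. -/
theorem n7 {p n q a : ℕ} (hq : p + 1 = 2 ^ q) (hp : 3 ≤ p) (h : 2 * n = p ^ 2 * (p ^ 4 - 1)) (ha : 2 ^ a ∣ n) :
    2 ^ a ∣ 2 * (p + 1) := by
  have hq2 : 2 ≤ q := by
    by_contra h0
    have : q ≤ 1 := by omega
    interval_cases q <;> omega
  obtain ⟨q', rfl⟩ : ∃ q', q = q' + 2 := ⟨q - 2, by omega⟩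
  have h0 : 0 < 2 ^ q' := by positivity
  obtain ⟨k, rfl⟩ : ∃ k, p = 4 * k + 3 := ⟨2 ^ q' - 1, by rw [pow_add] at hq; omega⟩
  have e : n = 2 * (4 * k + 3 + 1) * ((4 * k + 3) ^ 2 * (2 * k + 1) * (8 * k ^ 2 + 12 * k + 5)) := by
    have : (4 * k + 3) ^ 4 - 1 = 2 * (2 * (4 * k + 3 + 1) * ((2 * k + 1) * (8 * k ^ 2 + 12 * k + 5))) :=
      Nat.sub_eq_of_eq_add (by ring)
    rw [this] at h
    nlinarith
  rw [e] at ha
  refine (Nat.Coprime.pow_left a (Nat.coprime_two_left.2 ?_)).dvd_of_dvd_mul_right ha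
  exact ((Odd.pow ⟨2 * k + 1, by ring⟩).mul ⟨k, rfl⟩).mul ⟨4 * k ^ 2 + 6 * k + 2, by ring⟩

section Walter

variable {p n N q : ℕ}

theorem w_a (hp : p.Prime) (h7 : 7 ≤ p) (hq : p + 1 = 2 ^ q) (h : 2 * n = p ^ 2 * (p ^ 4 - 1)) (hN : N ∣ n)
    (hpN : p ∣ N) {a : ℕ} (ha : 2 ≤ a) (e : N = 2 ^ a * (2 ^ a - 1) * (2 ^ a + 1)) : False := by
  have h1 : 2 ^ a ∣ 2 ^ (q + 1) := by
    rw [pow_succ', ← hq]
    exact n7 hq (by omega) h (Dvd.dvd.trans ⟨_, e.trans (mul_assoc _ _ _)⟩ hN)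
  have h2 : a ≤ q + 1 := (Nat.pow_dvd_pow_iff_le_right (by omega)).1 h1
  have h4 : 4 ≤ 2 ^ a := by have := Nat.pow_le_pow_right (show 0 < 2 by omega) ha; simpa using this
  have hd : p ∣ 2 ^ a - 1 ∨ p ∣ 2 ^ a + 1 := by
    rw [e] at hpN
    rcases (hp.dvd_mul).1 hpN with h3 | h3
    · rcases (hp.dvd_mul).1 h3 with h3 | h3
      · have := Nat.le_of_dvd (by omega) (hp.dvd_of_dvd_pow h3); omega
      · exact Or.inl h3
    · exact Or.inr h3
  rcases (by omega : a + 1 ≤ q ∨ a = q ∨ a = q + 1) with h3 | h3 | h3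
  · have := Nat.pow_le_pow_right (show 0 < 2 by omega) h3
    rw [pow_succ] at this
    rcases hd with h5 | h5 <;> have := Nat.le_of_dvd (by omega) h5 <;> omega
  · subst h3
    have d1 : p + 2 ∣ p ^ 2 * (p ^ 4 - 1) := by
      rw [← h]
      refine Dvd.dvd.mul_left (Dvd.dvd.trans ?_ hN) 2
      rw [e, ← hq]; exact Dvd.intro_left _ rfl
    have hc : (p + 2).Coprime (p ^ 2) := by
      refine Nat.Coprime.pow_right 2 (Nat.Coprime.symm ((Nat.Prime.coprime_iff_not_dvd hp).2 fun hh => ?_))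
      have := Nat.le_of_dvd (by omega) ((Nat.dvd_add_right dvd_rfl).1 hh); omega
    have h15 := dvd_fifteen (hc.dvd_of_dvd_mul_left d1) (by omega) (Or.inr rfl)
    have := Nat.le_of_dvd (by omega) h15
    have h5 : p ≤ 13 := by omega
    have : p = 13 := by clear * - h7 h5 h15; interval_cases p <;> simp_all
    subst this
    exact ne_two_pow (by simp) hq
  · subst h3
    rw [pow_succ, ← hq] at hd
    rcases hd with h5 | h5
    · rw [show (p + 1) * 2 - 1 = p * 2 + 1 by omega] at h5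
      have := Nat.le_of_dvd (by omega) ((Nat.dvd_add_right (Dvd.intro _ rfl)).1 h5); omega
    · rw [show (p + 1) * 2 + 1 = p * 2 + 3 by omega] at h5
      have := Nat.le_of_dvd (by omega) ((Nat.dvd_add_right (Dvd.intro _ rfl)).1 h5); omega

theorem cop_p4 (hp : p.Prime) : p.Coprime (p ^ 4 - 1) := by
  refine (Nat.Prime.coprime_iff_not_dvd hp).2 fun hh => hp.one_lt.ne' (Nat.dvd_one.1 ?_)
  have h1 : 1 ≤ p ^ 4 := Nat.one_le_pow _ _ hp.pos
  have := Nat.dvd_sub (dvd_pow_self p (show 4 ≠ 0 by omega)) hh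
  rwa [show p ^ 4 - (p ^ 4 - 1) = 1 by omega] at this

theorem w_b (hp : p.Prime) (h7 : 7 ≤ p) (hq : p + 1 = 2 ^ q) (h : 2 * n = p ^ 2 * (p ^ 4 - 1)) (hN : N ∣ n)
    (hpN : p ∣ N) {l k : ℕ} (hl : l.Prime) (h8 : l ^ k % 8 = 3 ∨ l ^ k % 8 = 5)
    (e : N * 2 = l ^ k * (l ^ k - 1) * (l ^ k + 1)) : False := by
  have ho : Odd p := hp.odd_of_ne_two (by omega)
  have hr : Odd (l ^ k) := Nat.odd_iff.2 (by omega)
  have hk : k ≠ 0 := by rintro rfl; simp at h8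
  have hl2 : l ≠ 2 := by rintro rfl; exact Nat.not_odd_iff_even.2 (Nat.even_pow.2 ⟨even_two, hk⟩) hr
  have d1 : l ^ k ∣ p ^ 2 * (p ^ 4 - 1) := by
    rw [← h]
    refine Dvd.dvd.trans ?_ (Nat.mul_dvd_mul_left 2 hN)
    rw [mul_comm 2 N, e, mul_assoc]; exact Dvd.intro _ rfl
  have hq3 : 3 ≤ q := by
    by_contra h0
    have : q ≤ 2 := by omega
    interval_cases q <;> omega
  have hp8 : p % 8 = 7 := by
    obtain ⟨q', rfl⟩ : ∃ q', q = q' + 3 := ⟨q - 3, by omega⟩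
    rw [pow_add] at hq; omega
  by_cases hlp : l = p
  · subst hlp
    have d2 : l ^ k ∣ l ^ 2 := (Nat.Coprime.pow_left k (cop_p4 hp)).dvd_of_dvd_mul_right d1
    have : k ≤ 2 := (Nat.pow_dvd_pow_iff_le_right hp.one_lt).1 d2
    rcases (by omega : k = 1 ∨ k = 2) with rfl | rfl
    · rw [pow_one] at h8; omega
    · rw [Nat.pow_mod, hp8] at h8; omega
  have hc : (l ^ k).Coprime (p ^ 2) := Nat.Coprime.pow k 2 ((Nat.coprime_primes hl hp).2 hlp)
  have hs := odd_split (by omega) hl hl2 (hc.dvd_of_dvd_mul_left d1)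
  generalize l ^ k = r at *
  have hp2 : 1 ≤ p ^ 2 := Nat.one_le_pow _ _ hp.pos
  have hd : p ∣ r * (r - 1) * (r + 1) := e ▸ hpN.mul_right 2
  rcases (hp.dvd_mul).1 hd with h3 | ⟨t, ht⟩
  · rcases (hp.dvd_mul).1 h3 with h3 | ⟨t, ht⟩
    · exact hp.one_lt.ne' (Nat.eq_one_of_dvd_coprimes hc h3 (dvd_pow_self p (by omega)))
    · refine n2odd (t := t) (by omega) ho (by omega) ?_ hr hs
      rcases Nat.eq_zero_or_pos t with h0 | h0
      · subst h0; omega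
      · exact h0
  · have ht2 : 2 ≤ t := by
      obtain ⟨a, ha⟩ := ho
      obtain ⟨b, hb⟩ := hr
      rcases (by omega : t = 0 ∨ t = 1 ∨ 2 ≤ t) with rfl | rfl | h0 <;> omega
    have hr2 : 2 * p ≤ r + 1 := by nlinarith
    rcases hs with ⟨u, hu⟩ | ⟨u, hu⟩
    · have hu0 : 0 < u := by
        rcases Nat.eq_zero_or_pos u with h0 | h0
        · subst h0; have : 49 ≤ p ^ 2 := by nlinarith
          omega
        · exact h0
      obtain ⟨w, rfl⟩ : ∃ w, u = w + 1 := ⟨u - 1, by omega⟩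
      have e1 : p * p + w = p * (t * (w + 1)) := by
        have : r * (w + 1) + 1 = p ^ 2 := by omega
        calc p * p + w = r * (w + 1) + (w + 1) := by rw [← sq, ← this]; ring
          _ = (r + 1) * (w + 1) := by ring
          _ = _ := by rw [ht]; ring
      have d2 : p ∣ w := (Nat.dvd_add_right (Dvd.intro _ rfl)).1 (e1 ▸ Dvd.intro _ rfl)
      rcases Nat.eq_zero_or_pos w with h0 | h0
      · subst h0
        obtain ⟨a, ha⟩ := (ho.pow : Odd (p ^ 2))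
        obtain ⟨b, hb⟩ := hr
        omega
      · have := Nat.le_of_dvd h0 d2
        have h5 : r * (w + 1) + 1 = p ^ 2 := by omega
        nlinarith
    · have e1 : p * p + (u + 1) = p * (t * u) := by
        calc p * p + (u + 1) = r * u + u := by rw [← sq, ← hu]; ring
          _ = (r + 1) * u := by ring
          _ = _ := by rw [ht]; ring
      have d2 : p ∣ u + 1 := (Nat.dvd_add_right (Dvd.intro _ rfl)).1 (e1 ▸ Dvd.intro _ rfl)
      have h5 := Nat.le_of_dvd (by omega) d2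
      obtain ⟨Q, rfl⟩ : ∃ Q, p = Q + 1 := ⟨p - 1, by omega⟩
      have : (2 * Q + 1) * Q ≤ r * u := Nat.mul_le_mul (by omega) (by omega)
      nlinarith

theorem w_c (hp : p.Prime) (h7 : 7 ≤ p) (hq : p + 1 = 2 ^ q) (h : 2 * n = p ^ 2 * (p ^ 4 - 1)) (hN : N ∣ n)
    (hpN : p ∣ N) {k : ℕ} (hk : k ≠ 0) (e : N = (3 ^ k) ^ 3 * ((3 ^ k) ^ 3 + 1) * (3 ^ k - 1)) : False := by
  have d1 : 3 ^ (k * 3) ∣ p ^ 2 * (p ^ 4 - 1) := by
    rw [← h, pow_mul]
    exact Dvd.dvd.mul_left (Dvd.dvd.trans ⟨_, e.trans (mul_assoc _ _ _)⟩ hN) 2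
  have h3p : Nat.Coprime 3 p := (Nat.coprime_primes Nat.prime_three hp).2 (by omega)
  have e2 : p ^ 4 - 1 = (p - 1) * ((p + 1) * (p ^ 2 + 1)) := by
    obtain ⟨Q, rfl⟩ : ∃ Q, p = Q + 1 := ⟨p - 1, by omega⟩
    rw [Nat.add_sub_cancel]; exact Nat.sub_eq_of_eq_add (by ring)
  have c2 : Nat.Coprime 3 ((p + 1) * (p ^ 2 + 1)) := by
    refine Nat.Coprime.mul_right (hq ▸ Nat.Coprime.pow_right q (by norm_num)) ?_
    refine (Nat.Prime.coprime_iff_not_dvd Nat.prime_three).2 fun hh => ?_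
    have := Nat.mod_eq_zero_of_dvd hh
    rw [Nat.add_mod, Nat.pow_mod] at this
    have h3 : p % 3 < 3 := Nat.mod_lt _ (by omega)
    generalize p % 3 = x at *
    interval_cases x <;> simp at this
  have d2 : 3 ^ (k * 3) ∣ p - 1 := by
    have := (Nat.Coprime.pow (k * 3) 2 h3p).dvd_of_dvd_mul_left d1
    rw [e2] at this
    exact (Nat.Coprime.pow_left _ c2).dvd_of_dvd_mul_right this
  have h1 := Nat.le_of_dvd (by omega) d2
  rw [pow_mul] at h1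
  have h3 : 3 ≤ 3 ^ k := by simpa using Nat.pow_le_pow_right (show 0 < 3 by omega) (Nat.pos_of_ne_zero hk)
  have hodd : Odd ((3 ^ k) ^ 3) := (Odd.pow (by decide)).pow
  rw [e] at hpN
  rcases (hp.dvd_mul).1 hpN with h4 | h4
  · rcases (hp.dvd_mul).1 h4 with h4 | h4
    · have := Nat.le_of_dvd (by omega) (hp.dvd_of_dvd_pow (hp.dvd_of_dvd_pow h4)); omega
    · have h5 := Nat.le_of_dvd (by omega) h4
      obtain ⟨a, ha⟩ := hp.odd_of_ne_two (by omega)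
      obtain ⟨b, hb⟩ := hodd
      omega
  · have h5 := Nat.le_of_dvd (by omega) h4
    have : 3 ^ k ≤ (3 ^ k) ^ 3 := Nat.le_self_pow (by omega) _
    omega

theorem w_d (hp : p.Prime) (h7 : 7 ≤ p) (hq : p + 1 = 2 ^ q) (h : 2 * n = p ^ 2 * (p ^ 4 - 1)) (hN : 175560 ∣ n)
    (hpN : p ∣ 175560) : False := by
  have : p ∈ Nat.primeFactors 175560 := Nat.mem_primeFactors.2 ⟨hp, hpN, by omega⟩
  rw [show Nat.primeFactors 175560 = {2, 3, 5, 7, 11, 19} by decide +kernel] at this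
  simp only [Finset.mem_insert, Finset.mem_singleton] at this
  rcases this with rfl | rfl | rfl | rfl | rfl | rfl
  any_goals omega
  all_goals exact ne_two_pow (by simp) hq

end Walter

end Cfsg.Agent.LP2
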